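import Cfsg.Agent.Eq.Def_Blocks
import Cfsg.Agent.Blocks.Orth.InvertedSylow
import Cfsg.Agent.Chars.Basic
import Cfsg.Agent.Chars.Basic.ClassSum

/-!
# A real element with odd `p'`-centraliser forces a character of `p`-defect zero
-/

set_option autoImplicit false

namespace CfsgLib.Blocks

open Cfsg

universe u

variable {G : Type u} [Group G] [Finite G]

/-- The elements carrying `t` to a given conjugate are as many as the centraliser of `t`. -/
lemma card_filter_conj_eq_conj [Fintype G] [DecidableEq G] (t b₀ : G) :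
    (Finset.univ.filter fun b : G => b * t * b⁻¹ = b₀ * t * b₀⁻¹).card =
      Nat.card (Subgroup.centralizer ({t} : Set G)) := by
  classical
  rw [Nat.card_eq_fintype_card, Fintype.card_subtype]
  refine Finset.card_equiv (Equiv.mulLeft b₀⁻¹) fun b => ?_
  simp only [Finset.mem_filter, Finset.mem_univ, true_and, Equiv.coe_mulLeft,
    Subgroup.mem_centralizer_singleton_iff]
  constructor
  · intro h
    calc b₀⁻¹ * b * t = b₀⁻¹ * (b * t * b⁻¹) * b := by group
      _ = t * (b₀⁻¹ * b) := by rw [h]; group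
  · intro h
    calc b * t * b⁻¹ = b₀ * (b₀⁻¹ * b * t) * b⁻¹ := by group
      _ = b₀ * t * b₀⁻¹ := by rw [h]; group

/-- Without a character of `p`-defect zero the number of ways of writing an element as a product of
two conjugates of an element is divisible by `p` (counted in conjugators). -/
theorem dvd_card_conj_pairs [Fintype G] [DecidableEq G] (p : ℕ) [Fact p.Prime]
    (hno : ¬ ∃ χ : IrrCharacter G,
      (charDegree (χ : G → ℂ)).factorization p = (Nat.card G).factorization p) (t x : G) :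
    p ∣ (Finset.univ.filter fun ab : G × G =>
      ab.1 * t * ab.1⁻¹ * (ab.2 * t * ab.2⁻¹) = x).card := by
  classical
  set S := Finset.univ.filter fun ab : G × G =>
    ab.1 * t * ab.1⁻¹ * (ab.2 * t * ab.2⁻¹) = x
  choose q hq using fun χ : IrrCharacter G => Chars.charDegree_dvd_card χ
  have hqp : ∀ χ : IrrCharacter G, p ∣ q χ := by
    intro χ
    by_contra hnd
    refine hno ⟨χ, ?_⟩
    have hq0 : q χ ≠ 0 := fun h => hnd (h ▸ dvd_zero p)
    conv_rhs => rw [hq χ, Nat.factorization_mul (Chars.charDegree_pos χ).ne' hq0, Finsupp.add_apply,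
      Nat.factorization_eq_zero_of_not_dvd hnd, add_zero]
  choose q' hq' using hqp
  have hcj : ∀ (χ : IrrCharacter G) (g : G), (χ : G → ℂ) (g * t * g⁻¹) = (χ : G → ℂ) t :=
    fun χ g => Chars.isClassFunction_coe χ t g
  have hZ : ∀ χ : IrrCharacter G,
      ∑ ab : G × G, (χ : G → ℂ) (x⁻¹ * (ab.1 * t * ab.1⁻¹ * (ab.2 * t * ab.2⁻¹))) =
        (Nat.card G : ℂ) ^ 2 * ((χ : G → ℂ) x⁻¹ * (χ : G → ℂ) t ^ 2) /
          ((χ : G → ℂ) 1) ^ 2 := by
    intro χ
    have hn := Chars.map_one_ne_zero χ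
    rw [Fintype.sum_prod_type]
    simp only [← mul_assoc]
    have h1 : ∀ a : G, ∑ b : G, (χ : G → ℂ) (x⁻¹ * a * t * a⁻¹ * b * t * b⁻¹) =
        (Nat.card G : ℂ) * ((χ : G → ℂ) (x⁻¹ * (a * t * a⁻¹)) * (χ : G → ℂ) t) /
          (χ : G → ℂ) 1 := by
      intro a
      rw [← Chars.sum_map_mul_conjugate χ (x⁻¹ * (a * t * a⁻¹)) t]
      exact Finset.sum_congr rfl fun b _ => congrArg _ (by group)
    simp only [h1, ← Finset.sum_div, ← Finset.mul_sum, ← Finset.sum_mul,
      Chars.sum_map_mul_conjugate]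
    field_simp
  have hsum : ∑ χ : IrrCharacter G, (χ : G → ℂ) 1 *
      ∑ ab : G × G, (χ : G → ℂ) (x⁻¹ * (ab.1 * t * ab.1⁻¹ * (ab.2 * t * ab.2⁻¹))) =
      (S.card : ℂ) * Nat.card G := by
    simp only [Finset.mul_sum]
    rw [Finset.sum_comm]
    simp only [Chars.sum_irr_map_one_mul, inv_mul_eq_one]
    rw [← Finset.sum_filter, Finset.sum_const, nsmul_eq_mul]
    congr 3
    ext ab
    simp [S, eq_comm]
  simp only [hZ] at hsum
  refine Chars.dvd_of_isIntegral_div (Fact.out : p.Prime).ne_zero ?_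
  have hG : (Nat.card G : ℂ) ≠ 0 := Chars.natCard_ne_zero
  have hp : (p : ℂ) ≠ 0 := Nat.cast_ne_zero.2 (Fact.out : p.Prime).ne_zero
  have key : (S.card : ℂ) / p = ∑ χ : IrrCharacter G,
      (q' χ : ℂ) * ((χ : G → ℂ) x⁻¹ * (χ : G → ℂ) t ^ 2) := by
    rw [div_eq_iff hp]
    apply mul_right_cancel₀ hG
    rw [← hsum, Finset.sum_mul, Finset.sum_mul]
    refine Finset.sum_congr rfl fun χ _ => ?_
    have hd : (charDegree (χ : G → ℂ) : ℂ) ≠ 0 :=
      Nat.cast_ne_zero.2 (Chars.charDegree_pos χ).ne'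
    have hcard : (Nat.card G : ℂ) = (charDegree (χ : G → ℂ) : ℂ) * ((p : ℂ) * q' χ) := by
      exact_mod_cast (hq χ).trans (by rw [hq' χ])
    rw [← Chars.coe_charDegree, hcard]
    field_simp
  rw [key]
  exact IsIntegral.sum _ fun χ _ => (isIntegral_algebraMap (R := ℤ) (A := ℂ) (x := q' χ)).mul
    ((Chars.isIntegral_apply (Chars.isCharacter_coe χ) _).mul
      ((Chars.isIntegral_apply (Chars.isCharacter_coe χ) _).pow 2))

/-- An element inverted by an involution, both centralisers of order prime to `p` and the first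
odd, gives a character of `p`-defect zero. -/
theorem exists_defect_zero_of_inverted (p : ℕ) [Fact p.Prime] {t x : G} (htt : t * t = 1)
    (hinv : t * x * t⁻¹ = x⁻¹) (hodd : Odd (Nat.card (Subgroup.centralizer ({x} : Set G))))
    (hpx : ¬ p ∣ Nat.card (Subgroup.centralizer ({x} : Set G)))
    (hpt : ¬ p ∣ Nat.card (Subgroup.centralizer ({t} : Set G))) :
    ∃ χ : IrrCharacter G,
      (charDegree (χ : G → ℂ)).factorization p = (Nat.card G).factorization p := by
  classical
  have := Fintype.ofFinite G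
  by_contra hno
  set Cx := Subgroup.centralizer ({x} : Set G) with hCx
  set Ct := Subgroup.centralizer ({t} : Set G) with hCt
  have htinv : t⁻¹ = t := inv_eq_of_mul_eq_one_right htt
  have hoddord : ∀ y ∈ Cx, Odd (orderOf y) := fun y hy =>
    hodd.of_dvd_nat (by rw [← Subgroup.orderOf_mk y hy]; exact orderOf_dvd_natCard _)
  -- the involutions inverting `x` in the class of `t`
  have hconj : ∀ s : G, s * s = 1 → s * x * s⁻¹ = x⁻¹ → ∃ c ∈ Cx, c * t * c⁻¹ = s := by
    intro s hss hs
    have hc : t * s ∈ Cx := by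
      rw [hCx, Subgroup.mem_centralizer_singleton_iff]
      have h1 : t * s * x * (t * s)⁻¹ = x := by
        calc t * s * x * (t * s)⁻¹ = t * (s * x * s⁻¹) * t⁻¹ := by group
          _ = (t * x * t⁻¹)⁻¹ := by rw [hs]; group
          _ = x := by rw [hinv, inv_inv]
      exact mul_inv_eq_iff_eq_mul.1 h1
    obtain ⟨k, hk⟩ := exists_conj_eq_mul (t := t) (c := t * s) (hoddord _ hc) (by
      rw [mul_inv_rev, htinv, inv_eq_of_mul_eq_one_right hss, ← mul_assoc t t, htt, one_mul])
    rw [← mul_assoc t t, htt, one_mul] at hk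
    exact ⟨((t * s) ^ k)⁻¹, inv_mem (pow_mem hc k), by rw [inv_inv]; exact hk⟩
  have hxC : x ∈ Cx := Subgroup.mem_centralizer_singleton_iff.2 rfl
  obtain ⟨k, hk⟩ := exists_conj_eq_mul (hoddord x hxC) hinv
  -- the class piece
  let f : Cx → G := fun c => (c : G) * t * (c : G)⁻¹
  set T := Finset.univ.image f with hT
  have hTdvd : T.card ∣ Nat.card Cx := by
    refine ⟨(Finset.univ.filter fun c : Cx => f c = t).card, ?_⟩
    rw [Nat.card_eq_fintype_card, ← Finset.card_univ, Finset.card_eq_sum_card_image f]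
    rw [Finset.sum_congr rfl (g := fun _ => (Finset.univ.filter fun c : Cx => f c = t).card)]
    · rw [Finset.sum_const, smul_eq_mul, hT]
    · intro s hs
      obtain ⟨c₀, -, rfl⟩ := Finset.mem_image.1 hs
      refine Finset.card_equiv (Equiv.mulLeft c₀⁻¹) fun c => ?_
      simp only [Finset.mem_filter, Finset.mem_univ, true_and, Equiv.coe_mulLeft, f,
        Subgroup.coe_mul, Subgroup.coe_inv]
      constructor
      · intro h
        calc (c₀ : G)⁻¹ * c * t * ((c₀ : G)⁻¹ * c)⁻¹
            = (c₀ : G)⁻¹ * ((c : G) * t * (c : G)⁻¹) * c₀ := by group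
          _ = t := by rw [h]; group
      · intro h
        calc (c : G) * t * (c : G)⁻¹
            = c₀ * ((c₀ : G)⁻¹ * c * t * ((c₀ : G)⁻¹ * c)⁻¹) * (c₀ : G)⁻¹ := by group
          _ = c₀ * t * (c₀ : G)⁻¹ := by rw [h]
  have hmemT : ∀ a : G, a * t * a⁻¹ ∈ T ↔
      (a * t * a⁻¹) * x * (a * t * a⁻¹)⁻¹ = x⁻¹ := by
    intro a
    constructor
    · intro h
      obtain ⟨c, -, hc⟩ := Finset.mem_image.1 h
      rw [← hc]
      have hcx := Subgroup.mem_centralizer_singleton_iff.1 c.2
      have hcx' : (c : G)⁻¹ * x * c = x := by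
        calc (c : G)⁻¹ * x * c = (c : G)⁻¹ * (x * c) := by group
          _ = x := by rw [← hcx]; group
      calc f c * x * (f c)⁻¹ = (c : G) * (t * ((c : G)⁻¹ * x * c) * t⁻¹) * (c : G)⁻¹ := by
            simp only [f]; group
        _ = ((c : G) * x * (c : G)⁻¹)⁻¹ := by rw [hcx', hinv]; group
        _ = x⁻¹ := by rw [hcx]; group
    · intro h
      obtain ⟨c, hc, hc'⟩ := hconj (a * t * a⁻¹) (by
        calc a * t * a⁻¹ * (a * t * a⁻¹) = a * (t * t) * a⁻¹ := by group
          _ = 1 := by rw [htt]; group) h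
      exact Finset.mem_image.2 ⟨⟨c, hc⟩, Finset.mem_univ _, hc'⟩
  -- the count
  have hfib : ∀ a : G, (Finset.univ.filter fun b : G =>
      a * t * a⁻¹ * (b * t * b⁻¹) = x).card = if a * t * a⁻¹ ∈ T then Nat.card Ct else 0 := by
    intro a
    set s := a * t * a⁻¹ with hs
    have hss : s * s = 1 := by
      calc a * t * a⁻¹ * (a * t * a⁻¹) = a * (t * t) * a⁻¹ := by group
        _ = 1 := by rw [htt]; group
    split_ifs with h
    · obtain ⟨c, -, hc⟩ := Finset.mem_image.1 h
      have hcx := Subgroup.mem_centralizer_singleton_iff.1 c.2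
      have hb₀ : (c : G) * (x ^ k)⁻¹ * t * ((c : G) * (x ^ k)⁻¹)⁻¹ = s * x := by
        calc (c : G) * (x ^ k)⁻¹ * t * ((c : G) * (x ^ k)⁻¹)⁻¹
            = (c : G) * ((x ^ k)⁻¹ * t * x ^ k) * (c : G)⁻¹ := by group
          _ = f c * ((c : G) * x) * (c : G)⁻¹ := by rw [hk]; simp only [f]; group
          _ = s * x := by rw [hcx, ← mul_assoc, mul_assoc, mul_inv_cancel, mul_one, hc]
      rw [← card_filter_conj_eq_conj t ((c : G) * (x ^ k)⁻¹), hb₀]
      refine congrArg Finset.card (Finset.filter_congr fun b _ => ?_)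
      constructor
      · intro hb
        rw [← hb, ← mul_assoc, hss, one_mul]
      · intro hb
        rw [hb, ← mul_assoc, hss, one_mul]
    · rw [Finset.card_eq_zero, Finset.filter_eq_empty_iff]
      intro b _ hb
      refine h ((hmemT a).2 ?_)
      have hsb : b * t * b⁻¹ = s * x := by rw [← hb, ← mul_assoc, hss, one_mul]
      have hsq : s * x * (s * x) = 1 := by
        rw [← hsb]
        calc b * t * b⁻¹ * (b * t * b⁻¹) = b * (t * t) * b⁻¹ := by group
          _ = 1 := by rw [htt]; group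
      rw [inv_eq_of_mul_eq_one_right hss]
      exact eq_inv_of_mul_eq_one_left (by rw [mul_assoc]; exact hsq)
  have hA : (Finset.univ.filter fun a : G => a * t * a⁻¹ ∈ T).card = T.card * Nat.card Ct := by
    rw [Finset.card_eq_sum_card_fiberwise (f := fun a : G => a * t * a⁻¹) (t := T)
      (s := Finset.univ.filter fun a : G => a * t * a⁻¹ ∈ T)
      fun a ha => (Finset.mem_filter.1 ha).2]
    rw [Finset.sum_congr rfl (g := fun _ => Nat.card Ct), Finset.sum_const, smul_eq_mul]
    intro s hs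
    obtain ⟨c, -, rfl⟩ := Finset.mem_image.1 hs
    rw [← card_filter_conj_eq_conj t (c : G)]
    refine congrArg Finset.card ?_
    ext a
    simp only [Finset.mem_filter, Finset.mem_univ, true_and, f]
    exact ⟨fun h => h.2, fun h => ⟨by rw [h]; exact hs, h⟩⟩
  have hcount : (Finset.univ.filter fun ab : G × G =>
      ab.1 * t * ab.1⁻¹ * (ab.2 * t * ab.2⁻¹) = x).card = T.card * Nat.card Ct * Nat.card Ct := by
    rw [← hA, ← smul_eq_mul, ← Finset.sum_const, Finset.sum_filter]
    simp only [← hfib, Finset.card_filter, Fintype.sum_prod_type]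
  have hdvd := dvd_card_conj_pairs p hno t x
  rw [hcount] at hdvd
  rcases (Fact.out : p.Prime).dvd_mul.1 hdvd with h | h
  · rcases (Fact.out : p.Prime).dvd_mul.1 h with h' | h'
    · exact hpx (h'.trans hTdvd)
    · exact hpt h'
  · exact hpt h

end CfsgLib.Blocks
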