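import Cfsg.Agent.Blocks.Orth.TransitiveTie
import Cfsg.Agent.Chars.Induced.Clifford
import Cfsg.Agent.Chars.Basic.Linear

/-!
# One involution per point, normal Sylow subgroup, a character of `2`-defect zero
-/

set_option autoImplicit false

namespace CfsgLib.Blocks

open Cfsg

universe u v

variable {G : Type u} [Group G] [Finite G] {Ω : Type v} [MulAction G Ω] {p r : ℕ} [Fact p.Prime]

namespace NoDefectZeroAction

omit [Finite G] in
lemma orderOf_conj {t : G} (ht : orderOf t = 2) (g : G) : orderOf (g * t * g⁻¹) = 2 := by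
  rw [← ht]
  exact orderOf_injective (MulAut.conj g).toMonoidHom (MulAut.conj g).injective t

/-- Each point is fixed by exactly one involution. -/
theorem existsUnique_involution (h : NoDefectZeroAction p r G Ω)
    (hFT : ∀ K : Subgroup G, Odd (Nat.card K) → Group.IsSolvable K) (c : Ω) :
    ∃! t : G, orderOf t = 2 ∧ t • c = c := by
  classical
  have := h.finite
  have hex : ∀ d : Ω, ∃ t : G, orderOf t = 2 ∧ t • d = d := by
    intro d
    obtain ⟨t, ht⟩ := h.exists_involution
    obtain ⟨a, ha, -⟩ := h.existsUnique_fixed ht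
    obtain ⟨g, hg⟩ := h.trans a d
    exact ⟨g * t * g⁻¹, orderOf_conj ht g,
      by rw [← hg, mul_smul, inv_smul_smul, mul_smul, ha]⟩
  choose w hw hwfix using hex
  refine ⟨w c, ⟨hw c, hwfix c⟩, fun t ht => ?_⟩
  let f : {q : Ω × Ω // q.2 ≠ q.1} → {q : Ω × Ω // q.2 ≠ q.1} := fun q =>
    ⟨(q.1.2, w q.1.1 • q.1.2),
      fun he => q.2 (h.fixed_unique (hw q.1.1) he (hwfix q.1.1))⟩
  have hf : Function.Injective f := by
    rintro ⟨⟨c₁, a₁⟩, h₁⟩ ⟨⟨c₂, a₂⟩, h₂⟩ he
    have h' := congrArg Subtype.val he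
    simp only [f, Prod.mk.injEq] at h'
    obtain ⟨rfl, h''⟩ := h'
    by_cases hcc : c₁ = c₂
    · subst hcc; rfl
    · exact absurd h'' (h.ne_smul_of_fixed_ne hFT (hw c₁) (hw c₂) (hwfix c₁) (hwfix c₂) hcc a₁)
  refine eq_of_inv_mul_eq_one (h.faithful _ fun a => ?_)
  rw [mul_smul, inv_smul_eq_iff]
  by_cases hac : a = c
  · subst hac; rw [hwfix, ht.2]
  have hta : t • a ≠ a := fun he => hac (h.fixed_unique ht.1 he ht.2)
  obtain ⟨⟨⟨c', a'⟩, h'⟩, he⟩ := (Finite.injective_iff_surjective.1 hf) ⟨(a, t • a), hta⟩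
  have he' := congrArg Subtype.val he
  simp only [f, Prod.mk.injEq] at he'
  obtain ⟨rfl, he''⟩ := he'
  by_cases hcc : c' = c
  · subst hcc; exact he''
  · exact absurd he'' (h.ne_smul_of_fixed_ne hFT (hw c') ht.1 (hwfix c') ht.2 hcc a')

/-- There is a normal Sylow `p`-subgroup. -/
theorem exists_normal_sylow (h : NoDefectZeroAction p r G Ω)
    (hFT : ∀ K : Subgroup G, Odd (Nat.card K) → Group.IsSolvable K) :
    ∃ P : Sylow p G, (P : Subgroup G).Normal := by
  obtain ⟨z, hz⟩ := h.exists_involution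
  obtain ⟨a, ha, -⟩ := h.existsUnique_fixed hz
  obtain ⟨P, hP⟩ := (exists_defect_zero_or_inverted_sylow p h.oddC hz).resolve_left h.noDefectZero
  refine ⟨P, ?_⟩
  have hzz := mul_self_of_orderOf hz
  -- every involution lies in `z * P`
  have hall : ∀ t : G, orderOf t = 2 → z⁻¹ * t ∈ (P : Subgroup G) := by
    intro t ht
    obtain ⟨c, hc, -⟩ := h.existsUnique_fixed ht
    obtain ⟨y, hy, hyc⟩ := h.sylow_transitive P a c
    have h1 : y * z * y⁻¹ = t :=
      (h.existsUnique_involution hFT c).unique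
        ⟨orderOf_conj hz y, by rw [← hyc, mul_smul, inv_smul_smul, mul_smul, ha]⟩ ⟨ht, hc⟩
    have h2 : z⁻¹ * t = y⁻¹ * y⁻¹ := by
      have h3 := hP y hy
      rw [inv_eq_of_mul_eq_one_right hzz] at h3
      rw [← h1, inv_eq_of_mul_eq_one_right hzz]
      calc z * (y * z * y⁻¹) = z * y * z * y⁻¹ := by simp only [mul_assoc]
        _ = _ := by rw [h3]
    rw [h2]
    exact mul_mem (inv_mem hy) (inv_mem hy)
  refine ⟨fun q hq g => ?_⟩
  obtain ⟨y, hy, hya⟩ := h.sylow_transitive P a (g • a)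
  have hka : (y⁻¹ * g) • a = a := by rw [mul_smul, ← hya, inv_smul_smul]
  set k := y⁻¹ * g with hk
  have hkz : k * z * k⁻¹ = z :=
    (h.existsUnique_involution hFT a).unique
      ⟨orderOf_conj hz k, by
        rw [mul_smul, mul_smul, inv_smul_eq_iff.2 hka.symm, ha, hka]⟩ ⟨hz, ha⟩
  have hkq : k * q * k⁻¹ ∈ (P : Subgroup G) := by
    have hzq : orderOf (z * q) = 2 := by
      refine orderOf_eq_prime ?_ fun he => ?_
      · rw [pow_two]
        calc z * q * (z * q) = (z * q * z⁻¹) * q * (q⁻¹ * (z * z) * q) := by group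
          _ = 1 := by rw [hP q hq, hzz]; group
      · have hzP : z ∈ (P : Subgroup G) := by rw [eq_inv_of_mul_eq_one_left he]; exact inv_mem hq
        have := h.sylow_free P hzP ha
        rw [this, orderOf_one] at hz
        exact absurd hz (by norm_num)
    have := hall _ (orderOf_conj hzq k)
    rwa [show z⁻¹ * (k * (z * q) * k⁻¹) = z⁻¹ * (k * z * k⁻¹) * (k * q * k⁻¹) by group, hkz,
      inv_mul_cancel, one_mul] at this
  have : g * q * g⁻¹ = y * (k * q * k⁻¹) * y⁻¹ := by rw [hk]; group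
  rw [this]
  exact mul_mem (mul_mem hy hkq) (inv_mem hy)

theorem isPSolvable (P : Sylow p G) (hn : (P : Subgroup G).Normal) : IsPSolvable p G := by
  obtain ⟨n, hn'⟩ := IsPGroup.iff_card.1 P.isPGroup'
  refine ⟨2, ![⊥, (P : Subgroup G), ⊤], rfl, rfl, ?_, ?_, ?_⟩
  · refine Fin.monotone_iff_le_succ.2 fun i => ?_
    fin_cases i
    · exact (bot_le : (⊥ : Subgroup G) ≤ P)
    · exact (le_top : (P : Subgroup G) ≤ ⊤)
  · intro i
    fin_cases i
    · exact (inferInstance : (⊥ : Subgroup G).Normal)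
    · exact hn
    · exact (inferInstance : (⊤ : Subgroup G).Normal)
  · intro i
    fin_cases i
    · left
      exact ⟨n, (Subgroup.relIndex_bot_left (P : Subgroup G)).trans hn'⟩
    · right
      show ((P : Subgroup G).relIndex ⊤).Coprime p
      rw [Subgroup.relIndex_top_right]
      exact ((Fact.out : p.Prime).coprime_iff_not_dvd.2 P.not_dvd_index).symm

open CfsgLib.Chars CfsgLib.Chars.Induced in
/-- A character of `2`-defect zero, induced from the inertia group of a linear character of the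
normal Sylow subgroup. -/
theorem exists_two_defect_zero (h : NoDefectZeroAction p r G Ω) (hr : 1 ≤ r) (P : Sylow p G)
    (hn : (P : Subgroup G).Normal) :
    ∃ χ : IrrCharacter G,
      (charDegree (χ : G → ℂ)).factorization 2 = (Nat.card G).factorization 2 := by
  classical
  have hp : p.Prime := Fact.out
  have := Fintype.ofFinite G
  obtain ⟨a⟩ : Nonempty Ω := by
    rcases isEmpty_or_nonempty Ω with he | he
    · have := h.card
      rw [Nat.card_of_isEmpty] at this
      exact absurd this.symm (pow_ne_zero _ hp.ne_zero)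
    · exact he
  set N := (P : Subgroup G) with hN
  have := Fintype.ofFinite N
  have hcomm := h.commutative P
  have hcard := h.sylow_card P a
  have : Nontrivial N := by
    refine Finite.one_lt_card_iff_nontrivial.1 ?_
    rw [hcard]
    exact Nat.one_lt_pow (by omega) hp.one_lt
  have hcom : commutator N ≠ ⊤ := by
    rw [(CfsgLib.Chars.commutator_eq_bot_iff (G := N)).2
      fun χ => map_one_eq_one_of_isMulCommutative χ]
    exact bot_ne_top
  obtain ⟨l, hl⟩ := exists_nontrivial_linChar hcom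
  set θ := linChar l with hθ
  set T := inertia N (θ : N → ℂ) with hT
  have := Fintype.ofFinite T
  have hNT : N ≤ T := le_inertia (CfsgLib.Chars.isClassFunction_coe θ)
  have hinv : ∀ g ∈ T, ∀ n n' : N, (n' : G) = g * n * g⁻¹ → l n' = l n := by
    intro g hg n n' he
    have := mem_inertia_iff_forall.1 hg n n' he
    exact Units.ext (by simpa [hθ] using this)
  -- the inertia group is odd
  have hTodd : ¬ 2 ∣ Nat.card T := by
    intro h2
    obtain ⟨⟨t, htT⟩, ht⟩ := exists_prime_orderOf_dvd_card' 2 h2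
    rw [Subgroup.orderOf_mk] at ht
    have hti := h.isPElement_inverted ht N P.isPGroup' fun x hx => hn.conj_mem x hx t
    refine hl (MonoidHom.ext fun n => ?_)
    have h1 : l n⁻¹ = l n := hinv t htT n n⁻¹ (by rw [hti n n.2]; rfl)
    rw [map_inv, inv_eq_iff_mul_eq_one, ← map_mul, ← pow_two, map_pow] at h1
    have h2 : (l n) ^ Nat.card N = 1 := by rw [← map_pow, pow_card_eq_one', map_one]
    have hodd : Nat.Coprime 2 (Nat.card N) := by
      rw [hcard]
      exact Nat.Coprime.pow_right r ((Nat.coprime_primes Nat.prime_two hp).2 (Ne.symm h.odd))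
    have h3 := pow_gcd_eq_one.2 ⟨h1, h2⟩
    rw [hodd, pow_one] at h3
    simpa using h3
  -- the extension
  choose π hπ hπa using fun g : G => h.sylow_transitive P a (g • a)
  have hπu : ∀ (g : G) (y : G), y ∈ N → y • a = g • a → π g = y := by
    intro g y hy he
    have h1 := h.sylow_free P (mul_mem (inv_mem hy) (hπ g)) (a := a)
      (by rw [mul_smul, hπa, ← he, inv_smul_smul])
    exact (inv_mul_eq_one.1 h1).symm
  let e : T →* ℂˣ :=
    { toFun := fun g => l ⟨π g, hπ g⟩
      map_one' := by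
        rw [show (⟨π ((1 : T) : G), hπ _⟩ : N) = 1 from
          Subtype.ext (hπu _ 1 N.one_mem rfl), map_one]
      map_mul' := fun g₁ g₂ => by
        have hm : (g₁ : G) * π g₂ * (g₁ : G)⁻¹ ∈ N := hn.conj_mem _ (hπ _) _
        have h1 : π ((g₁ : G) * g₂) = (g₁ : G) * π g₂ * (g₁ : G)⁻¹ * π g₁ := by
          refine hπu _ _ (mul_mem hm (hπ _)) ?_
          rw [mul_smul, hπa, mul_smul, inv_smul_smul, mul_smul, hπa, ← mul_smul]
        rw [show (⟨π ((g₁ * g₂ : T) : G), hπ _⟩ : N) =
          ⟨(g₁ : G) * π g₂ * (g₁ : G)⁻¹, hm⟩ * ⟨π g₁, hπ _⟩ from Subtype.ext h1, map_mul,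
          hinv g₁ g₁.2 ⟨π g₂, hπ _⟩ ⟨_, hm⟩ rfl, mul_comm] }
  set ψ := linChar e with hψdef
  have hres : (fun n : N => (ψ : T → ℂ) (Subgroup.inclusion hNT n)) = (θ : N → ℂ) := by
    funext n
    have h1 : (⟨π (n : G), hπ _⟩ : N) = n := Subtype.ext (hπu _ n n.2 rfl)
    simp only [hψdef, hθ, linChar_apply]
    exact congrArg (fun u : N => ((l u : ℂˣ) : ℂ)) h1
  have hψ : mult (fun n : N => (ψ : T → ℂ) (Subgroup.inclusion hNT n)) θ ≠ 0 := by
    rw [hres, mult_irr, if_pos rfl]
    exact one_ne_zero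
  refine ⟨⟨_, isIrrCharacter_indFun_inertia hT hNT ψ hψ⟩, ?_⟩
  have hdeg : charDegree (indFun T (ψ : T → ℂ)) = T.index := by
    have h1 : ((charDegree (indFun T (ψ : T → ℂ)) : ℕ) : ℂ) = (T.index : ℂ) := by
      rw [CfsgLib.Chars.coe_charDegree ⟨_, isIrrCharacter_indFun_inertia hT hNT ψ hψ⟩]
      show indFun T (ψ : T → ℂ) 1 = _
      rw [indFun_one_apply, linChar_map_one, mul_one]
    exact_mod_cast h1
  show (charDegree (indFun T (ψ : T → ℂ))).factorization 2 = _
  rw [hdeg, ← T.card_mul_index, Nat.factorization_mul Nat.card_pos.ne'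
    Subgroup.index_ne_zero_of_finite, Finsupp.add_apply,
    Nat.factorization_eq_zero_of_not_dvd hTodd, zero_add]

end NoDefectZeroAction

end CfsgLib.Blocks
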