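import Cfsg.Agent.Eq.Def_Blocks
import Cfsg.Agent.Blocks.Orth.DefectZero
import Mathlib.GroupTheory.GroupAction.Quotient
import Mathlib.GroupTheory.Index

/-!
# Faithful transitive actions of prime power degree without a character of `p`-defect zero

Standing hypotheses: centralisers of non-identity `p`-elements are odd, no character has `p`-defect
zero, `p` is odd, `|G|` is even and `G` acts faithfully and transitively on `p ^ r` points.
-/

set_option autoImplicit false

namespace CfsgLib.Blocks

open Cfsg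

universe u v

/-- The standing hypotheses. -/
structure NoDefectZeroAction (p r : ℕ) (G : Type u) (Ω : Type v) [Group G] [MulAction G Ω] :
    Prop where
  faithful : ∀ g : G, (∀ a : Ω, g • a = a) → g = 1
  trans : ∀ a b : Ω, ∃ g : G, g • a = b
  odd : p ≠ 2
  even : 2 ∣ Nat.card G
  oddC : OddPCentralizers p G
  noDefectZero : ¬ ∃ χ : IrrCharacter G,
    (charDegree (χ : G → ℂ)).factorization p = (Nat.card G).factorization p
  card : Nat.card Ω = p ^ r

variable {G : Type u} [Group G] [Finite G] {Ω : Type v} [MulAction G Ω] {p r : ℕ} [Fact p.Prime]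

namespace NoDefectZeroAction

lemma finite (h : NoDefectZeroAction p r G Ω) : Finite Ω :=
  Nat.finite_of_card_ne_zero (by rw [h.card]; exact pow_ne_zero _ (Fact.out : p.Prime).ne_zero)

lemma exists_involution (h : NoDefectZeroAction p r G Ω) : ∃ t : G, orderOf t = 2 :=
  exists_prime_orderOf_dvd_card' 2 h.even

lemma commutative (h : NoDefectZeroAction p r G Ω) (P : Sylow p G) :
    IsMulCommutative (P : Subgroup G) := by
  obtain ⟨t, ht⟩ := h.exists_involution
  obtain ⟨g, hg⟩ := exists_conj_inverts_sylow p h.oddC h.noDefectZero ht P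
  exact isMulCommutative_of_inverted _ hg

lemma sylow_transitive (h : NoDefectZeroAction p r G Ω) (P : Sylow p G) (a b : Ω) :
    ∃ y ∈ (P : Subgroup G), y • a = b := by
  have := h.finite
  have hp : p.Prime := Fact.out
  suffices hall : MulAction.orbit (P : Subgroup G) a = Set.univ by
    obtain ⟨⟨y, hy⟩, hyb⟩ := (Set.eq_univ_iff_forall.1 hall) b
    exact ⟨y, hy, hyb⟩
  apply Set.eq_univ_of_univ_subset
  refine (Set.eq_of_subset_of_ncard_le (Set.subset_univ _) ?_ Set.finite_univ).ge
  rw [Set.ncard_univ, h.card, ← MulAction.index_stabilizer]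
  set A := MulAction.stabilizer (P : Subgroup G) a with hA
  set H := MulAction.stabilizer G a with hH
  have hHidx : H.index = p ^ r := by
    rw [hH, MulAction.index_stabilizer, ← h.card, ← Set.ncard_univ]
    congr 1
    exact Set.eq_univ_of_forall fun b => h.trans a b
  obtain ⟨i, hi⟩ := IsPGroup.iff_card.1 (P.isPGroup'.to_subgroup A)
  have hAH : Nat.card A ∣ Nat.card H := by
    let f : A →* H :=
      { toFun := fun y => ⟨((y : (P : Subgroup G)) : G), y.2⟩
        map_one' := rfl
        map_mul' := fun _ _ => rfl }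
    exact Subgroup.card_dvd_of_injective f fun y z hyz =>
      Subtype.ext (Subtype.ext (congrArg (fun w : H => (w : G)) hyz))
  have hv : i + r ≤ (Nat.card G).factorization p := by
    rw [← Nat.Prime.pow_dvd_iff_le_factorization hp Nat.card_pos.ne', ← H.card_mul_index, hHidx,
      pow_add]
    exact Nat.mul_dvd_mul_right (hi ▸ hAH) _
  have hP := P.card_eq_multiplicity
  rw [← A.card_mul_index, hi] at hP
  have : A.index = p ^ ((Nat.card G).factorization p - i) := by
    apply Nat.eq_of_mul_eq_mul_left (pow_pos hp.pos i)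
    rw [hP, ← pow_add]
    congr 1
    omega
  rw [this]
  exact Nat.pow_le_pow_right hp.pos (by omega)

lemma sylow_free (h : NoDefectZeroAction p r G Ω) (P : Sylow p G) {y : G}
    (hy : y ∈ (P : Subgroup G)) {a : Ω} (hya : y • a = a) : y = 1 := by
  refine h.faithful y fun b => ?_
  obtain ⟨z, hz, rfl⟩ := h.sylow_transitive P a b
  have := h.commutative P
  have hc : y * z = z * y :=
    congrArg Subtype.val (mul_comm' (⟨y, hy⟩ : (P : Subgroup G)) ⟨z, hz⟩)
  rw [← mul_smul, hc, mul_smul, hya]

lemma sylow_card (h : NoDefectZeroAction p r G Ω) (P : Sylow p G) (a : Ω) :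
    Nat.card (P : Subgroup G) = p ^ r := by
  rw [← h.card]
  refine Nat.card_congr (Equiv.ofBijective (fun y : (P : Subgroup G) => (y : G) • a) ⟨?_, ?_⟩)
  · intro y z hyz
    have hyz' : (y : G) • a = (z : G) • a := hyz
    have h1 := h.sylow_free P (y := (z : G)⁻¹ * y) (mul_mem (inv_mem z.2) y.2) (a := a)
      (by rw [mul_smul, hyz', inv_smul_smul])
    exact Subtype.ext (inv_mul_eq_one.1 h1).symm
  · intro b
    obtain ⟨y, hy, hb⟩ := h.sylow_transitive P a b
    exact ⟨⟨y, hy⟩, hb⟩

lemma not_dvd_stabilizer (h : NoDefectZeroAction p r G Ω) (a : Ω) :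
    ¬ p ∣ Nat.card (MulAction.stabilizer G a) := by
  intro hdvd
  obtain ⟨⟨g, hg⟩, hgo⟩ := exists_prime_orderOf_dvd_card' p hdvd
  rw [Subgroup.orderOf_mk] at hgo
  obtain ⟨P, hP⟩ := (IsPGroup.of_card (n := 1)
    (by rw [Nat.card_zpowers, hgo, pow_one]) : IsPGroup p (Subgroup.zpowers g)).exists_le_sylow
  have := h.sylow_free P (hP (Subgroup.mem_zpowers g)) (MulAction.mem_stabilizer_iff.1 hg)
  rw [this, orderOf_one] at hgo
  exact (Fact.out : p.Prime).ne_one hgo.symm

/-- An involution fixes exactly one point. -/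
lemma existsUnique_fixed (h : NoDefectZeroAction p r G Ω) {t : G} (ht : orderOf t = 2) :
    ∃! a : Ω, t • a = a := by
  obtain ⟨P, hP⟩ := (exists_defect_zero_or_inverted_sylow p h.oddC ht).resolve_left h.noDefectZero
  have hp : p.Prime := Fact.out
  obtain ⟨a, ha⟩ : ∃ a : Ω, t • a = a := by
    have := h.finite
    have := Fintype.ofFinite Ω
    refine Equiv.Perm.exists_fixed_point_of_prime (p := 2) (n := 1)
      (σ := MulAction.toPermHom G Ω t) ?_ ?_
    · rw [← Nat.card_eq_fintype_card, h.card]
      intro hd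
      exact h.odd ((Nat.prime_dvd_prime_iff_eq Nat.prime_two hp).1
        (Nat.prime_two.dvd_of_dvd_pow hd)).symm
    · rw [pow_one, ← map_pow, ← ht, pow_orderOf_eq_one, map_one]
  refine ⟨a, ha, fun b hb => ?_⟩
  obtain ⟨y, hy, rfl⟩ := h.sylow_transitive P a b
  have h1 : y⁻¹ • a = y • a := by
    rw [← hb, ← hP y hy]
    simp only [mul_smul, inv_smul_eq_iff.2 ha.symm]
  have h2 : (y * y) • a = a := by rw [mul_smul, ← h1, smul_inv_smul]
  have h3 := h.sylow_free P (mul_mem hy hy) h2
  have h4 : y = 1 := by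
    obtain ⟨k, hk⟩ := IsPGroup.iff_orderOf.1 P.isPGroup' ⟨y, hy⟩
    rw [Subgroup.orderOf_mk] at hk
    have h5 : orderOf y ∣ 2 := orderOf_dvd_of_pow_eq_one (by rw [pow_two, h3])
    rw [hk] at h5
    rcases (Nat.dvd_prime Nat.prime_two).1 h5 with h6 | h6
    · rw [← orderOf_eq_one_iff, hk, h6]
    · exfalso
      cases k with
      | zero => simp at h6
      | succ k => exact h.odd (((Nat.prime_two).eq_one_or_self_of_dvd p
          (h6 ▸ dvd_pow_self p k.succ_ne_zero)).resolve_left hp.ne_one)
  rw [h4, one_smul]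

lemma fixed_unique (h : NoDefectZeroAction p r G Ω) {t : G} (ht : orderOf t = 2) {a b : Ω}
    (ha : t • a = a) (hb : t • b = b) : a = b :=
  (h.existsUnique_fixed ht).unique ha hb

end NoDefectZeroAction

end CfsgLib.Blocks
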