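import Cfsg.Agent.Blocks.Orth.RealClassSum
import Cfsg.Agent.Blocks.Orth.TransitiveSylow
import Cfsg.Agent.Constrained.Fitting

/-!
# Involutions with different fixed points agree nowhere

Under the standing hypotheses, and given solvability of subgroups of odd order.
-/

set_option autoImplicit false

namespace CfsgLib.Blocks

open Cfsg

universe u v

variable {G : Type u} [Group G] [Finite G] {Ω : Type v} [MulAction G Ω] {p r : ℕ} [Fact p.Prime]

open scoped Pointwise in
/-- An involution normalising a subgroup of odd order normalises one of its Sylow subgroups. -/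
lemma exists_invariant_sylow_of_odd (p : ℕ) [Fact p.Prime] {s : G} (hss : s * s = 1)
    (C : Subgroup G) (hodd : Odd (Nat.card C)) (hs : ∀ x ∈ C, s * x * s⁻¹ ∈ C) :
    ∃ S : Sylow p C, ∀ x ∈ (S : Subgroup C).map C.subtype,
      s * x * s⁻¹ ∈ (S : Subgroup C).map C.subtype := by
  classical
  have hconj2 : ∀ x : G, s * (s * x * s⁻¹) * s⁻¹ = x := fun x => by
    calc s * (s * x * s⁻¹) * s⁻¹ = (s * s) * x * (s * s)⁻¹ := by group
      _ = x := by rw [hss, inv_one, mul_one, one_mul]
  let θ : MulAut C :=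
    { toFun := fun x => ⟨s * x * s⁻¹, hs x x.2⟩
      invFun := fun x => ⟨s * x * s⁻¹, hs x x.2⟩
      left_inv := fun x => Subtype.ext (hconj2 x)
      right_inv := fun x => Subtype.ext (hconj2 x)
      map_mul' := fun x y => Subtype.ext (by simp [mul_assoc]) }
  have hθ : θ * θ = 1 := by
    ext x
    exact hconj2 x
  have : Fintype (Sylow p C) := Fintype.ofFinite _
  obtain ⟨S, hS⟩ : ∃ S : Sylow p C, (MulAction.toPerm θ) S = S := by
    refine Equiv.Perm.exists_fixed_point_of_prime (p := 2) (n := 1) ?_ ?_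
    · intro h
      rw [← Nat.card_eq_fintype_card] at h
      have h1 : Nat.card (Sylow p C) ∣ Nat.card C := by
        obtain ⟨S⟩ : Nonempty (Sylow p C) := inferInstance
        rw [S.card_eq_index_normalizer]
        exact Subgroup.index_dvd_card _
      exact hodd.not_two_dvd_nat (h.trans h1)
    · ext S
      rw [pow_one, sq, Equiv.Perm.mul_apply]
      simp only [MulAction.toPerm_apply, ← mul_smul, hθ, one_smul, Equiv.Perm.one_apply]
  refine ⟨S, ?_⟩
  rintro x ⟨y, hy, rfl⟩
  refine ⟨θ y, ?_, rfl⟩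
  rw [← hS]
  exact Subgroup.smul_mem_pointwise_smul y θ _ hy

namespace NoDefectZeroAction

omit [Finite G] in
lemma mul_self_of_orderOf {s : G} (hs : orderOf s = 2) : s * s = 1 := by
  rw [← pow_two, ← hs, pow_orderOf_eq_one]

/-- Commuting involutions fix the same point. -/
lemma commute_fixed (h : NoDefectZeroAction p r G Ω) {s t : G} (hs : orderOf s = 2)
    (hst : s * t = t * s) {a : Ω} (ha : s • a = a) : t • a = a :=
  h.fixed_unique hs (by rw [← mul_smul, hst, mul_smul, ha]) ha

lemma isPElement_inverted (h : NoDefectZeroAction p r G Ω) {s : G} (hs : orderOf s = 2)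
    (Q : Subgroup G) (hQ : IsPGroup p Q) (hQs : ∀ x ∈ Q, s * x * s⁻¹ ∈ Q) :
    ∀ x ∈ Q, s * x * s⁻¹ = x⁻¹ := by
  refine conj_eq_inv_of_no_fixed (mul_self_of_orderOf hs) Q hQs fun x hx hfix => ?_
  by_contra hx1
  obtain ⟨k, hk⟩ := IsPGroup.iff_orderOf.1 hQ ⟨x, hx⟩
  rw [Subgroup.orderOf_mk] at hk
  have hmem : s ∈ Subgroup.centralizer ({x} : Set G) :=
    Subgroup.mem_centralizer_singleton_iff.2 (mul_inv_eq_iff_eq_mul.1 hfix)
  refine (h.oddC x hx1 ⟨k, hk⟩).not_two_dvd_nat ?_
  rw [← hs, ← Subgroup.orderOf_mk s hmem]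
  exact orderOf_dvd_natCard _

/-- In the centraliser of a nontrivial `p`-element the Sylow subgroup is normal. -/
lemma sylow_normal_of_centralizer (h : NoDefectZeroAction p r G Ω)
    (hFT : ∀ K : Subgroup G, Odd (Nat.card K) → Group.IsSolvable K)
    {y : G} (hy1 : y ≠ 1) (hy : ∃ k : ℕ, orderOf y = p ^ k) :
    ∃ P : Sylow p G, (P : Subgroup G) ≤ Subgroup.centralizer ({y} : Set G) ∧
      ∀ g : G, (∀ x ∈ Subgroup.centralizer ({y} : Set G),
          g * x * g⁻¹ ∈ Subgroup.centralizer ({y} : Set G)) →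
        ∀ q ∈ (P : Subgroup G), g * q * g⁻¹ ∈ (P : Subgroup G) := by
  set Y := Subgroup.centralizer ({y} : Set G) with hY
  have hYodd : Odd (Nat.card Y) := h.oddC y hy1 hy
  obtain ⟨k, hk⟩ := hy
  obtain ⟨P, hP⟩ := (IsPGroup.of_card (n := k)
    (by rw [Nat.card_zpowers, hk]) : IsPGroup p (Subgroup.zpowers y)).exists_le_sylow
  have hcomm := h.commutative P
  have hPY : (P : Subgroup G) ≤ Y := fun q hq =>
    Subgroup.mem_centralizer_singleton_iff.2 (congrArg Subtype.val
      (mul_comm' (⟨q, hq⟩ : (P : Subgroup G)) ⟨y, hP (Subgroup.mem_zpowers y)⟩))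
  refine ⟨P, hPY, ?_⟩
  have : Group.IsSolvable Y := hFT Y hYodd
  have hO : pPrimeCore p Y = ⊥ := by
    rw [eq_bot_iff]
    intro z hz
    rw [Subgroup.mem_bot]
    refine Subtype.ext (h.faithful (z : G) fun b => ?_)
    set N := pPrimeCore p Y
    set A := MulAction.stabilizer Y b with hA
    have hidx : A.index = p ^ r := by
      rw [hA, MulAction.index_stabilizer, ← h.card, ← Set.ncard_univ]
      congr 1
      refine Set.eq_univ_of_forall fun c => ?_
      obtain ⟨q, hq, hqc⟩ := h.sylow_transitive P b c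
      exact ⟨⟨q, hPY hq⟩, hqc⟩
    have h1 : A.relIndex N ∣ p ^ r := by
      have e0 : A.relIndex (A ⊔ N) = A.relIndex N := by
        have e1 := Subgroup.relIndex_mul_relIndex ⊥ N (A ⊔ N) bot_le le_sup_right
        have e2 := Subgroup.relIndex_mul_relIndex ⊥ A (A ⊔ N) bot_le le_sup_left
        have e3 := Subgroup.relIndex_mul_relIndex ⊥ (A ⊓ N) N bot_le inf_le_right
        have e4 := Subgroup.relIndex_mul_relIndex ⊥ (A ⊓ N) A bot_le inf_le_left
        rw [Subgroup.inf_relIndex_right] at e3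
        rw [Subgroup.inf_relIndex_left] at e4
        rw [Subgroup.relIndex_sup_right] at e1
        simp only [Subgroup.relIndex_bot_left] at e1 e2 e3 e4
        refine Nat.eq_of_mul_eq_mul_left (Nat.card_pos (α := A)) ?_
        rw [e2, ← e1, ← e3, ← e4]
        ring
      rw [← hidx, ← Subgroup.relIndex_mul_index (le_sup_left : A ≤ A ⊔ N), e0]
      exact dvd_mul_right _ _
    have h2 : A.relIndex N ∣ Nat.card N := Subgroup.index_dvd_card _
    have h3 : Nat.Coprime (p ^ r) (Nat.card N) :=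
      Nat.Coprime.pow_left r (((Fact.out : p.Prime).coprime_iff_not_dvd).2
        Constrained.pPrimeCore_not_dvd)
    exact Subgroup.relIndex_eq_one.1 (Nat.eq_one_of_dvd_coprimes h3 h1 h2) hz
  set R := pCore p Y with hR
  have hRp : IsPGroup p R := Constrained.isPGroup_pCore
  have hRn : R.Normal := inferInstance
  have hPR : (P : Subgroup G).subgroupOf Y ≤ R := by
    have hle : R ≤ (P : Subgroup G).subgroupOf Y := by
      have hPp : IsPGroup p ((P : Subgroup G).subgroupOf Y) :=
        P.isPGroup'.comap_of_injective Y.subtype Y.subtype_injective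
      have hsup : IsPGroup p ((P : Subgroup G).subgroupOf Y ⊔ R : Subgroup Y) :=
        hPp.to_sup_of_normal_right hRp
      intro z hz
      have h1 : IsPGroup p (((P : Subgroup G).subgroupOf Y ⊔ R).map Y.subtype) := hsup.map _
      have h2 : (P : Subgroup G) ≤ ((P : Subgroup G).subgroupOf Y ⊔ R).map Y.subtype :=
        fun q hq => ⟨⟨q, hPY hq⟩, Subgroup.mem_sup_left hq, rfl⟩
      have h3 := P.is_maximal' h1 h2
      exact Subgroup.mem_subgroupOf.2 (h3 ▸ ⟨z, Subgroup.mem_sup_right hz, rfl⟩)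
    refine le_trans (fun q hq => ?_) (le_of_le_of_eq
      (le_of_eq_of_le (b := Subgroup.centralizer (fittingSubgroup Y : Set Y)) (by
        rw [Constrained.fitting_eq_pCore hO]) Constrained.centralizer_fitting_le)
      (Constrained.fitting_eq_pCore hO))
    refine Subgroup.mem_centralizer_iff.2 fun z hz => Subtype.ext ?_
    have e := congrArg (fun w : (P : Subgroup G) => (w : G))
      (mul_comm' (⟨(z : G), Subgroup.mem_subgroupOf.1 (hle hz)⟩ : (P : Subgroup G))
        ⟨(q : G), Subgroup.mem_subgroupOf.1 hq⟩)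
    exact e
  intro g hg q hq
  -- the image of the Sylow subgroup is a `p`-subgroup of `Y`
  let e : (P : Subgroup G) →* Y :=
    { toFun := fun x => ⟨g * x * g⁻¹, hg x (hPY x.2)⟩
      map_one' := Subtype.ext (by simp)
      map_mul' := fun x z => Subtype.ext (by simp [mul_assoc]) }
  have hEp : IsPGroup p e.range := by
    rw [MonoidHom.range_eq_map]
    exact (P.isPGroup'.to_subgroup ⊤).map _
  have hsup : IsPGroup p ((e.range ⊔ R).map Y.subtype) :=
    (hEp.to_sup_of_normal_right hRp).map _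
  have hle : (P : Subgroup G) ≤ (e.range ⊔ R).map Y.subtype :=
    fun x hx => ⟨⟨x, hPY hx⟩, Subgroup.mem_sup_right (hPR hx), rfl⟩
  exact P.is_maximal' hsup hle ▸ ⟨e ⟨q, hq⟩, Subgroup.mem_sup_left ⟨_, rfl⟩, rfl⟩

/-- A fixed-point element inverted by an involution commutes with no inverted `p`-element. -/
lemma sq_eq_one_of_inverted (h : NoDefectZeroAction p r G Ω)
    (hFT : ∀ K : Subgroup G, Odd (Nat.card K) → Group.IsSolvable K)
    {s x y : G} (hs : orderOf s = 2) (hx : s * x * s⁻¹ = x⁻¹) {a : Ω} (hxa : x • a = a)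
    (hy1 : y ≠ 1) (hy : ∃ k : ℕ, orderOf y = p ^ k) (hsy : s * y * s⁻¹ = y⁻¹)
    (hxy : x * y = y * x) : x * x = 1 := by
  obtain ⟨P, hPY, hnorm⟩ := h.sylow_normal_of_centralizer hFT hy1 hy
  have hxY : x ∈ Subgroup.centralizer ({y} : Set G) :=
    Subgroup.mem_centralizer_singleton_iff.2 hxy
  have hxn : ∀ q ∈ (P : Subgroup G), x * q * x⁻¹ ∈ (P : Subgroup G) :=
    hnorm x fun z hz => mul_mem (mul_mem hxY hz) (inv_mem hxY)
  have hsn : ∀ q ∈ (P : Subgroup G), s * q * s⁻¹ ∈ (P : Subgroup G) := by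
    refine hnorm s fun z hz => ?_
    rw [Subgroup.mem_centralizer_singleton_iff] at hz ⊢
    have h1 : z * y⁻¹ = y⁻¹ * z := (Commute.inv_right (show Commute z y from hz)).eq
    have hy' : s * y⁻¹ * s⁻¹ = y := by
      rw [show s * y⁻¹ * s⁻¹ = (s * y * s⁻¹)⁻¹ by group, hsy, inv_inv]
    calc s * z * s⁻¹ * y = s * z * s⁻¹ * (s * y⁻¹ * s⁻¹) := by rw [hy']
      _ = s * (z * y⁻¹) * s⁻¹ := by group
      _ = s * (y⁻¹ * z) * s⁻¹ := by rw [h1]
      _ = (s * y⁻¹ * s⁻¹) * (s * z * s⁻¹) := by group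
      _ = y * (s * z * s⁻¹) := by rw [hy']
  have hinv := h.isPElement_inverted hs (P : Subgroup G) P.isPGroup' hsn
  refine h.faithful _ fun b => ?_
  obtain ⟨q, hq, rfl⟩ := h.sylow_transitive P a b
  have h1 : x⁻¹ * q⁻¹ * x = (x * q * x⁻¹)⁻¹ := by
    symm
    calc (x * q * x⁻¹)⁻¹ = s * (x * q * x⁻¹) * s⁻¹ := (hinv _ (hxn q hq)).symm
      _ = (s * x * s⁻¹) * (s * q * s⁻¹) * (s * x * s⁻¹)⁻¹ := by group
      _ = x⁻¹ * q⁻¹ * x := by rw [hx, hinv q hq, inv_inv]
  have h2 : x * x * q = q * (x * x) := by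
    have h3 := congrArg (fun g : G => g⁻¹) h1
    simp only [mul_inv_rev, inv_inv, ← mul_assoc] at h3
    calc x * x * q = x * (x * q * x⁻¹) * x := by group
      _ = q * (x * x) := by rw [← h3]; group
  rw [← mul_smul, h2, mul_smul, mul_smul, hxa, hxa]

/-- Involutions with different fixed points agree nowhere. -/
theorem ne_smul_of_fixed_ne (h : NoDefectZeroAction p r G Ω)
    (hFT : ∀ K : Subgroup G, Odd (Nat.card K) → Group.IsSolvable K)
    {s t : G} (hs : orderOf s = 2) (ht : orderOf t = 2) {c d : Ω} (hc : s • c = c) (hd : t • d = d)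
    (hcd : c ≠ d) (a : Ω) : s • a ≠ t • a := by
  intro hag
  have hss := mul_self_of_orderOf hs
  have htt := mul_self_of_orderOf ht
  set x := s * t with hxdef
  have hsinv : s⁻¹ = s := inv_eq_of_mul_eq_one_right hss
  have htinv : t⁻¹ = t := inv_eq_of_mul_eq_one_right htt
  have hx : s * x * s⁻¹ = x⁻¹ := by
    rw [hxdef, hsinv, mul_inv_rev, hsinv, htinv, ← mul_assoc s s, hss, one_mul]
  have hne : ∀ b : Ω, s • b = b → t • b ≠ b := fun b hb hb' =>
    hcd ((h.fixed_unique hs hc hb).trans (h.fixed_unique ht hb' hd))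
  have hncomm : ¬ x * s = s * x := fun he =>
    hne c hc (h.commute_fixed hs (t := t) (by
      rw [hxdef, mul_assoc, ← mul_assoc s s, hss, one_mul] at he
      calc s * t = s * (s * (t * s)) := by rw [he]
        _ = t * s := by rw [← mul_assoc, hss, one_mul]) hc)
  have hxa : x • a = a := by rw [hxdef, mul_smul, ← hag, ← mul_smul, hss, one_smul]
  set C := Subgroup.centralizer ({x} : Set G) with hC
  have hodd : Odd (Nat.card C) := by
    by_contra hev
    obtain ⟨⟨u, huC⟩, hu⟩ := exists_prime_orderOf_dvd_card' (G := C) 2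
      (even_iff_two_dvd.1 (Nat.not_odd_iff_even.1 hev))
    rw [Subgroup.orderOf_mk] at hu
    have hux : u * x = x * u := Subgroup.mem_centralizer_singleton_iff.1 huC
    have huu := mul_self_of_orderOf hu
    have huinv : u⁻¹ = u := inv_eq_of_mul_eq_one_right huu
    obtain ⟨e, he, -⟩ := h.existsUnique_fixed hu
    by_cases hec : e = c
    · subst hec
      have hxe : x • e = e := h.commute_fixed hu hux he
      have ht' : t • e = e := by
        rw [show t = s * x by rw [hxdef, ← mul_assoc, hss, one_mul], mul_smul, hxe, hc]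
      exact hne e hc ht'
    · set w := u * s with hw
      have hodw : Odd (orderOf w) := by
        by_contra hev'
        obtain ⟨m, hm⟩ := even_iff_two_dvd.1 (Nat.not_odd_iff_even.1 hev')
        have hpos := orderOf_pos w
        have hwm : orderOf (w ^ m) = 2 := by
          rw [orderOf_pow' w (by omega), hm, Nat.gcd_mul_left_left,
            Nat.mul_div_cancel _ (by omega)]
        have hinvm : (w ^ m)⁻¹ = w ^ m := inv_eq_of_mul_eq_one_right (mul_self_of_orderOf hwm)
        have hcu : u * w ^ m = w ^ m * u := by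
          have h1 : u * w * u⁻¹ = w⁻¹ := by
            rw [hw, mul_inv_rev, huinv, hsinv, ← mul_assoc u u, huu, one_mul]
          have h2 : u * w ^ m * u⁻¹ = (w ^ m)⁻¹ := by rw [← conj_pow, h1, inv_pow]
          rw [hinvm] at h2
          exact mul_inv_eq_iff_eq_mul.1 h2
        have hcs : s * w ^ m = w ^ m * s := by
          have h1 : s * w * s⁻¹ = w⁻¹ := by
            rw [hw, mul_inv_rev, huinv, hsinv, mul_assoc, mul_assoc u s s, hss, mul_one]
          have h2 : s * w ^ m * s⁻¹ = (w ^ m)⁻¹ := by rw [← conj_pow, h1, inv_pow]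
          rw [hinvm] at h2
          exact mul_inv_eq_iff_eq_mul.1 h2
        exact hec (h.fixed_unique hwm (h.commute_fixed hu hcu he) (h.commute_fixed hs hcs hc))
      obtain ⟨k, hk⟩ := exists_conj_eq_mul (t := u) hodw (by
        rw [hw, mul_inv_rev, huinv, hsinv, ← mul_assoc u u, huu, one_mul])
      rw [hw, ← mul_assoc u u, huu, one_mul, ← hw] at hk
      have hwx : w * x * w⁻¹ = x⁻¹ := by
        have h1 : u * x⁻¹ = x⁻¹ * u := (Commute.inv_right (show Commute u x from hux)).eq
        calc w * x * w⁻¹ = u * (s * x * s⁻¹) * u⁻¹ := by rw [hw]; group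
          _ = x⁻¹ := by rw [hx, h1]; group
      have hpow : ∀ i : ℕ, w ^ i * x * (w ^ i)⁻¹ = x ∨ w ^ i * x * (w ^ i)⁻¹ = x⁻¹ := by
        intro i
        induction i with
        | zero => left; simp
        | succ i ih =>
          rcases ih with h1 | h1
          · right
            calc w ^ (i + 1) * x * (w ^ (i + 1))⁻¹ = w * (w ^ i * x * (w ^ i)⁻¹) * w⁻¹ := by
                  rw [pow_succ']; group
              _ = x⁻¹ := by rw [h1, hwx]
          · left
            calc w ^ (i + 1) * x * (w ^ (i + 1))⁻¹ = w * (w ^ i * x * (w ^ i)⁻¹) * w⁻¹ := by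
                  rw [pow_succ']; group
              _ = (w * x * w⁻¹)⁻¹ := by rw [h1]; group
              _ = x := by rw [hwx, inv_inv]
      apply hncomm
      have hxinv : x⁻¹ * u = u * x⁻¹ := (Commute.inv_left (show Commute x u from hux.symm)).eq
      rcases hpow k with h1 | h1
      · calc x * s = (w ^ k)⁻¹ * ((w ^ k * x * (w ^ k)⁻¹) * u) * w ^ k := by
              rw [← hk]; group
          _ = (w ^ k)⁻¹ * (u * (w ^ k * x * (w ^ k)⁻¹)) * w ^ k := by rw [h1, hux]
          _ = s * x := by rw [← hk]; group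
      · calc x * s = (w ^ k)⁻¹ * ((w ^ k * x * (w ^ k)⁻¹) * u) * w ^ k := by
              rw [← hk]; group
          _ = (w ^ k)⁻¹ * (u * (w ^ k * x * (w ^ k)⁻¹)) * w ^ k := by rw [h1, hxinv]
          _ = s * x := by rw [← hk]; group
  have hsC : ∀ z ∈ C, s * z * s⁻¹ ∈ C := by
    intro z hz
    rw [hC, Subgroup.mem_centralizer_singleton_iff] at hz ⊢
    have h1 : z * x⁻¹ = x⁻¹ * z := (Commute.inv_right (show Commute z x from hz)).eq
    have hx' : s * x⁻¹ * s⁻¹ = x := by
      rw [show s * x⁻¹ * s⁻¹ = (s * x * s⁻¹)⁻¹ by group, hx, inv_inv]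
    calc s * z * s⁻¹ * x = s * z * s⁻¹ * (s * x⁻¹ * s⁻¹) := by rw [hx']
      _ = s * (z * x⁻¹) * s⁻¹ := by group
      _ = s * (x⁻¹ * z) * s⁻¹ := by rw [h1]
      _ = (s * x⁻¹ * s⁻¹) * (s * z * s⁻¹) := by group
      _ = x * (s * z * s⁻¹) := by rw [hx']
  have hpx : p ∣ Nat.card C := by
    by_contra hpx
    exact h.noDefectZero (exists_defect_zero_of_inverted p hss hx hodd hpx
      (not_dvd_card_centralizer_of_involution Fact.out h.oddC hs))
  obtain ⟨S, hS⟩ := exists_invariant_sylow_of_odd p hss C hodd hsC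
  set Q := (S : Subgroup C).map C.subtype with hQ
  have hQp : IsPGroup p Q := S.isPGroup'.map _
  obtain ⟨⟨z, hz⟩, hz1⟩ : ∃ z : (S : Subgroup C), z ≠ 1 := by
    by_contra hall
    push Not at hall
    refine S.not_dvd_index ?_
    have : (S : Subgroup C) = ⊥ := (Subgroup.eq_bot_iff_forall _).2 fun z hz =>
      congrArg Subtype.val (hall ⟨z, hz⟩)
    rwa [this, Subgroup.index_bot]
  have hy1 : (z : G) ≠ 1 := fun hh => hz1 (Subtype.ext (Subtype.ext hh))
  have hzQ : (z : G) ∈ Q := ⟨z, hz, rfl⟩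
  obtain ⟨k, hk⟩ := IsPGroup.iff_orderOf.1 hQp ⟨z, hzQ⟩
  rw [Subgroup.orderOf_mk] at hk
  have hxy : x * (z : G) = (z : G) * x :=
    (Subgroup.mem_centralizer_singleton_iff.1 z.2).symm
  have h2 := h.sq_eq_one_of_inverted hFT hs hx hxa hy1 ⟨k, hk⟩
    (h.isPElement_inverted hs Q hQp hS _ hzQ) hxy
  refine hncomm ?_
  have hxinv : x⁻¹ = x := inv_eq_of_mul_eq_one_right h2
  rw [hxinv] at hx
  exact (mul_inv_eq_iff_eq_mul.1 hx).symm

end NoDefectZeroAction

end CfsgLib.Blocks
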